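import Cfsg.Agent.Lib.Brauer.CharRing
import Cfsg.Agent.Lib.Frobenius.Induce
import Cfsg.Agent.Lib.CharTheory.PermChar
import Mathlib.GroupTheory.SpecificGroups.Alternating
import Mathlib.RingTheory.RootsOfUnity.Complex

/-!
The class functions on `2 × A₅` used for the order of the first Janko group: they vanish off the
elements whose fifteenth power is the central involution.
-/

set_option autoImplicit false
set_option maxRecDepth 10000
set_option linter.unusedSimpArgs false

open Cfsg
open scoped ComplexConjugate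

namespace CfsgLib.JankoOrder

/-- `A₅`. -/
abbrev A5 := alternatingGroup (Fin 5)

/-- `2 × A₅`. -/
abbrev K := Multiplicative (ZMod 2) × A5

/-- A `5`-cycle. -/
def g5 : A5 := ⟨finRotate 5, Equiv.Perm.mem_alternatingGroup.2 (by decide)⟩

/-- The class of an element of `A₅`: identity, involutions, `3`-cycles, two classes of `5`-cycles. -/
def ty (x : A5) : Fin 5 :=
  match (Finset.univ.filter fun i : Fin 5 => (x : Equiv.Perm (Fin 5)) i = i).card with
  | 5 => 0
  | 1 => 1
  | 2 => 2
  | _ => if ∃ h : A5, h * g5 * h⁻¹ = x then 3 else 4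

theorem card_ty : ∀ i : Fin 5,
    (Finset.univ.filter fun x : A5 => ty x = i).card = ![1, 15, 20, 12, 12] i := by
  decide +kernel

theorem sum_ty (g : Fin 5 → ℂ) :
    ∑ x : A5, g (ty x) = g 0 + 15 * g 1 + 20 * g 2 + 12 * g 3 + 12 * g 4 := by
  rw [← Finset.sum_fiberwise Finset.univ ty]
  have h : ∀ i, ∑ x ∈ Finset.univ.filter (fun x : A5 => ty x = i), g (ty x) =
      ((![1, 15, 20, 12, 12] i : ℕ) : ℂ) * g i := fun i => by
    rw [Finset.sum_congr rfl (g := fun _ => g i) fun x hx => by rw [(Finset.mem_filter.1 hx).2],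
      Finset.sum_const, card_ty, nsmul_eq_mul]
  simp only [h, Fin.sum_univ_five]
  simp [Matrix.cons_val]

theorem fixed_ty : ∀ x : A5,
    (Finset.univ.filter fun i : Fin 5 => (x : Equiv.Perm (Fin 5)) i = i).card =
      ![5, 1, 2, 0, 0] (ty x) := by
  decide +kernel

theorem card_conj_pow : ∀ (x : A5) (j : Fin 5),
    (Finset.univ.filter fun y : A5 => y⁻¹ * x * y = g5 ^ (j : ℕ)).card =
      (![![60, 0, 0, 0, 0], ![0, 0, 0, 0, 0], ![0, 0, 0, 0, 0], ![0, 5, 0, 0, 5],
        ![0, 0, 5, 5, 0]] (ty x)) j := by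
  decide +kernel

theorem orderOf_g5 : orderOf g5 = 5 :=
  orderOf_eq_prime (hp := ⟨by decide⟩) (by decide +kernel) (by decide +kernel)

/-- A primitive fifth root of unity. -/
noncomputable def ζ : ℂ := Complex.exp (2 * Real.pi * Complex.I / (5 : ℕ))

theorem isPrimitiveRoot_ζ : IsPrimitiveRoot ζ 5 := Complex.isPrimitiveRoot_exp 5 (by norm_num)

theorem ζ_sum : 1 + ζ + ζ ^ 2 + ζ ^ 3 + ζ ^ 4 = 0 := by
  have := isPrimitiveRoot_ζ.geom_sum_eq_zero (by norm_num)
  simpa [Finset.sum_range_succ] using this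

/-- `ζ + ζ⁻¹`. -/
noncomputable def uu : ℂ := ζ + ζ ^ 4

theorem uu_sq : uu * uu = 1 - uu := by
  have h5 := isPrimitiveRoot_ζ.pow_eq_one
  have hs := ζ_sum
  unfold uu
  linear_combination hs + (2 + ζ ^ 3) * h5

theorem conj_uu : conj uu = uu := by
  have h5 := isPrimitiveRoot_ζ.pow_eq_one
  have hn : ‖ζ‖ = 1 := IsPrimitiveRoot.norm'_eq_one isPrimitiveRoot_ζ (by norm_num)
  have hi : conj ζ = ζ ^ 4 := by
    have hz : ζ * conj ζ = 1 := by rw [Complex.mul_conj']; simp [hn]
    calc conj ζ = ζ ^ 5 * conj ζ := by rw [h5, one_mul]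
      _ = ζ ^ 4 * (ζ * conj ζ) := by ring
      _ = ζ ^ 4 := by rw [hz, mul_one]
  unfold uu
  rw [map_add, map_pow, hi]
  linear_combination (ζ ^ 11 + ζ ^ 6 + ζ) * h5

/-- The value tables of the four virtual characters of `A₅` vanishing on involutions. -/
noncomputable def val : Fin 4 → Fin 5 → ℂ :=
  ![![4, 0, 1, -1, -1], ![4, 0, 1, 2 + uu, 1 - uu], ![4, 0, 1, 1 - uu, 2 + uu],
    ![-4, 0, 2, 1, 1]]

theorem conj_val (i : Fin 4) (j : Fin 5) : conj (val i j) = val i j := by
  fin_cases i <;> fin_cases j <;> simp [val, conj_uu, map_ofNat]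

theorem isGeneralizedCharacter_ind (m : ℕ) :
    IsGeneralizedCharacter A5 (fun x => ∑ j : Fin 5,
      (((![![60, 0, 0, 0, 0], ![0, 0, 0, 0, 0], ![0, 0, 0, 0, 0], ![0, 5, 0, 0, 5],
        ![0, 0, 5, 5, 0]] (ty x)) j : ℕ) : ℂ) / 5 * ζ ^ (m * (j : ℕ))) := by
  classical
  let H := Subgroup.zpowers g5
  have hgen : ∀ z : H, z ∈ Subgroup.zpowers (⟨g5, Subgroup.mem_zpowers _⟩ : H) := by
    rintro ⟨z, hz⟩
    obtain ⟨k, rfl⟩ := Subgroup.mem_zpowers_iff.1 hz
    exact Subgroup.mem_zpowers_iff.2 ⟨k, Subtype.ext (by simp)⟩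
  let w : ℂˣ := (isPrimitiveRoot_ζ.isUnit (by norm_num)).unit ^ m
  have hw : (w : ℂ) = ζ ^ m := by simp [w]
  have hword : orderOf w ∣ orderOf (⟨g5, Subgroup.mem_zpowers _⟩ : H) := by
    rw [Subgroup.orderOf_mk, orderOf_g5]
    refine orderOf_dvd_of_pow_eq_one (Units.ext ?_)
    rw [Units.val_pow_eq_pow_val, hw, ← pow_mul, mul_comm, pow_mul,
      isPrimitiveRoot_ζ.pow_eq_one, one_pow, Units.val_one]
  let l : H →* ℂˣ := monoidHomOfForallMemZpowers hgen hword
  have hl : ∀ k : ℕ, ∀ hk, (l ⟨g5 ^ k, hk⟩ : ℂ) = ζ ^ (m * k) := by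
    intro k hk
    have : (⟨g5 ^ k, hk⟩ : H) = (⟨g5, Subgroup.mem_zpowers _⟩ : H) ^ k := Subtype.ext (by simp)
    rw [this, map_pow, monoidHomOfForallMemZpowers_apply_gen, Units.val_pow_eq_pow_val, hw,
      ← pow_mul]
  have hgc := Frobenius.isGeneralizedCharacter_indFun (G := A5) H _
    (Brauer.isGeneralizedCharacter_of_isCharacter (Brauer.isCharacter_monoidHom l))
  refine (congrArg (IsGeneralizedCharacter A5) ?_).mp hgc
  funext x
  have hext : ∀ z : A5, extendByZero H (fun h => (l h : ℂ)) z =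
      ∑ j : Fin 5, if z = g5 ^ (j : ℕ) then ζ ^ (m * (j : ℕ)) else 0 := by
    intro z
    by_cases hz : z ∈ H
    · obtain ⟨k, hk5, rfl⟩ : ∃ k < 5, g5 ^ k = z := by
        obtain ⟨k, rfl⟩ := (mem_zpowers_iff_mem_range_orderOf.1 hz |> Finset.mem_image.1).imp
          fun k hk => hk.2
        exact ⟨k % 5, Nat.mod_lt _ (by norm_num), (congrArg (fun n => g5 ^ (k % n)) orderOf_g5.symm).trans (pow_mod_orderOf g5 k)⟩
      rw [Finset.sum_eq_single ⟨k, hk5⟩, if_pos rfl, Frobenius.extendByZero_of_mem H _ hz, hl]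
      · intro j _ hj
        rw [if_neg fun h => hj (Fin.ext ?_)]
        exact (pow_injOn_Iio_orderOf (by simp [orderOf_g5, j.2]) (by simp [orderOf_g5, hk5]) h.symm)
      · simp
    · rw [Frobenius.extendByZero_of_not_mem H _ hz]
      refine (Finset.sum_eq_zero fun j _ => if_neg fun h => hz ?_).symm
      exact h ▸ Subgroup.pow_mem _ (Subgroup.mem_zpowers _) _
  have hH : Nat.card H = 5 := by rw [Nat.card_zpowers, orderOf_g5]
  simp only [indFun, hext, hH]
  rw [Finset.sum_comm, Finset.mul_sum]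
  refine Finset.sum_congr rfl fun j _ => ?_
  rw [← Finset.sum_filter, Finset.sum_const, card_conj_pow, nsmul_eq_mul]
  push_cast
  ring

/-- `π₅ - 1`. -/
theorem isGeneralizedCharacter_psi :
    IsGeneralizedCharacter A5 (fun x => val 0 (ty x)) := by
  have h := Brauer.isGeneralizedCharacter_sub (Brauer.isGeneralizedCharacter_of_isCharacter
    (CharTheory.isCharacter_card_fixedBy (G := A5) (Fin 5))) Brauer.isGeneralizedCharacter_one
  refine (congrArg (IsGeneralizedCharacter A5) ?_).mp h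
  funext x
  have hf : Nat.card (MulAction.fixedBy (Fin 5) x) = ![5, 1, 2, 0, 0] (ty x) := by
    rw [← fixed_ty x, Nat.card_eq_fintype_card, ← Finset.card_subtype]
    exact Fintype.card_congr (Equiv.refl _) |>.trans (by simp [Fintype.card_subtype]; rfl)
  rw [Pi.sub_apply, hf, Pi.one_apply]
  generalize ty x = i
  fin_cases i <;> norm_num [val]

theorem isGeneralizedCharacter_val (i : Fin 4) :
    IsGeneralizedCharacter A5 (fun x => val i (ty x)) := by
  have hp := isGeneralizedCharacter_psi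
  have hq := Brauer.isGeneralizedCharacter_mul hp hp
  have h1 := isGeneralizedCharacter_ind 1
  have h2 := isGeneralizedCharacter_ind 2
  have h5 := isPrimitiveRoot_ζ.pow_eq_one
  have hs := ζ_sum
  have hu : uu = ζ + ζ ^ 4 := rfl
  have h8 : ζ ^ 8 = ζ ^ 3 := by linear_combination ζ ^ 3 * h5
  have h6 : ζ ^ 6 = ζ := by linear_combination ζ * h5
  fin_cases i
  · exact hp
  · refine (congrArg (IsGeneralizedCharacter A5) ?_).mp (Brauer.isGeneralizedCharacter_sub hq h2)
    funext x
    simp only [Pi.sub_apply, Pi.mul_apply, Fin.sum_univ_five]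
    generalize ty x = i
    fin_cases i <;> simp [val, hu, h6, h8] <;> first | (norm_num; done) | linear_combination -hs | ring
  · refine (congrArg (IsGeneralizedCharacter A5) ?_).mp (Brauer.isGeneralizedCharacter_sub hq h1)
    funext x
    simp only [Pi.sub_apply, Pi.mul_apply, Fin.sum_univ_five]
    generalize ty x = i
    fin_cases i <;> simp [val, hu, h6, h8] <;> first | (norm_num; done) | linear_combination -hs | ring
  · refine (congrArg (IsGeneralizedCharacter A5) ?_).mp (Brauer.isGeneralizedCharacter_sub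
      (Brauer.isGeneralizedCharacter_sub (CfsgLib.Coherence.isGeneralizedCharacter_add hp hq) h1) h2)
    funext x
    simp only [Pi.sub_apply, Pi.add_apply, Pi.mul_apply, Fin.sum_univ_five]
    generalize ty x = i
    fin_cases i <;> simp [val, hu, h6, h8] <;> first | (norm_num; done) | linear_combination -hs | ring

/-- The central sign. -/
def sg : K →* ℤˣ where
  toFun p := if p.1 = 1 then 1 else -1
  map_one' := by decide
  map_mul' := by decide +kernel

/-- The central involution. -/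
def kz : K := (Multiplicative.ofAdd 1, 1)

/-- The four functions on `2 × A₅`. -/
noncomputable def alphaK (i : Fin 4) (p : K) : ℂ :=
  (1 - ((sg p : ℤ) : ℂ)) * val i (ty p.2)

theorem isGeneralizedCharacter_alphaK (i : Fin 4) : IsGeneralizedCharacter K (alphaK i) := by
  have hs : IsCharacter K (fun p => ((sg p : ℤ) : ℂ)) := by
    have := Brauer.isCharacter_monoidHom ((Units.map (Int.castRingHom ℂ).toMonoidHom).comp sg)
    simpa using this
  exact Brauer.isGeneralizedCharacter_mul (Brauer.isGeneralizedCharacter_sub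
    Brauer.isGeneralizedCharacter_one (Brauer.isGeneralizedCharacter_of_isCharacter hs))
    (CfsgLib.Coherence.isGeneralizedCharacter_comp (isGeneralizedCharacter_val i)
      (MonoidHom.snd (Multiplicative (ZMod 2)) A5))

theorem alphaK_eq_zero_of_pow {p : K} (h : p ^ 15 ≠ kz) (i : Fin 4) : alphaK i p = 0 := by
  have : ∀ q : K, q ^ 15 ≠ kz → q.1 = 1 ∨ ty q.2 = 1 := by decide +kernel
  rcases this p h with h1 | h1
  · simp [alphaK, sg, h1]
  · fin_cases i <;> simp [alphaK, h1, val]

theorem sum_K (F : K → ℂ) (g0 g1 : Fin 5 → ℂ) (h0 : ∀ a, F (1, a) = g0 (ty a))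
    (h1 : ∀ a, F (Multiplicative.ofAdd 1, a) = g1 (ty a)) :
    ∑ p : K, F p = (g0 0 + 15 * g0 1 + 20 * g0 2 + 12 * g0 3 + 12 * g0 4) +
      (g1 0 + 15 * g1 1 + 20 * g1 2 + 12 * g1 3 + 12 * g1 4) := by
  rw [Fintype.sum_prod_type,
    show (Finset.univ : Finset (Multiplicative (ZMod 2))) = {1, Multiplicative.ofAdd 1} by decide,
    Finset.sum_pair (by decide)]
  simp only [h0, h1, sum_ty]

theorem alphaK_one_left (i : Fin 4) (a : A5) : alphaK i (1, a) = 0 := by simp [alphaK, sg]

theorem alphaK_z_left (i : Fin 4) (a : A5) :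
    alphaK i (Multiplicative.ofAdd 1, a) = 2 * val i (ty a) := by
  have h : (Multiplicative.ofAdd (1 : ZMod 2)) ≠ 1 := by decide
  simp [alphaK, sg, h]
  left
  norm_num

/-- The Gram matrix. -/
def gram : Fin 4 → Fin 4 → ℤ := ![![2, 0, 0, 0], ![0, 4, 2, 2], ![0, 2, 4, 2], ![0, 2, 2, 4]]

theorem sum_alphaK_mul (i j : Fin 4) :
    ∑ p : K, alphaK i p * conj (alphaK j p) = 120 * (gram i j : ℂ) := by
  rw [sum_K _ (fun _ => 0) (fun k => 4 * (val i k * val j k))
    (fun a => by simp [alphaK_one_left]) fun a => by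
      rw [alphaK_z_left, alphaK_z_left, map_mul, conj_val, map_ofNat]; ring]
  have h := uu_sq
  fin_cases i <;> fin_cases j <;> simp [val, gram] <;>
    first | (norm_num; done) | linear_combination (96 : ℂ) * h | linear_combination (-96 : ℂ) * h | ring

theorem sum_alphaK (i : Fin 4) :
    ∑ p : K, alphaK i p = 120 * ((![0, 1, 1, 1] i : ℤ) : ℂ) := by
  rw [sum_K _ (fun _ => 0) (fun k => 2 * val i k) (fun a => alphaK_one_left i a)
    (fun a => alphaK_z_left i a)]
  fin_cases i <;> simp [val] <;> ring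

/-- The combination of the four functions supported at the central involution alone. -/
theorem alphaK_delta (p : K) :
    4 * alphaK 0 p + 3 * alphaK 1 p + 3 * alphaK 2 p - 5 * alphaK 3 p =
      if p = kz then 120 else 0 := by
  obtain ⟨s, a⟩ := p
  rcases (show ∀ s : Multiplicative (ZMod 2), s = 1 ∨ s = Multiplicative.ofAdd 1 by decide) s with
    rfl | rfl
  · simp only [alphaK_one_left]
    rw [if_neg (fun h => (show (1 : Multiplicative (ZMod 2)) ≠ Multiplicative.ofAdd 1 by decide) (congrArg Prod.fst h))]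
    ring
  · simp only [alphaK_z_left]
    have : ∀ a : A5, ty a = 0 ↔ a = 1 := by decide +kernel
    by_cases ha : a = 1
    · subst ha
      rw [(this 1).2 rfl, if_pos (show ((Multiplicative.ofAdd 1, 1) : K) = kz from rfl)]
      simp [val]
      norm_num
    · rw [if_neg (by simp [kz, ha])]
      have h0 : ty a ≠ 0 := fun h => ha ((this a).1 h)
      generalize ty a = k at h0
      fin_cases k <;> simp [val] at * <;> ring

/-- The number of ways to write an element as a product of two involutions. -/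
def pairs (q : K) : ℕ :=
  (Finset.univ.filter fun p : K => (p * p = 1 ∧ p ≠ 1) ∧ (p * q) * (p * q) = 1 ∧ p * q ≠ 1).card

theorem pairs_eq : ∀ a : A5, ty a ≠ 1 →
    pairs (Multiplicative.ofAdd 1, a) = ![30, 0, 6, 10, 10] (ty a) := by
  decide +kernel

theorem sum_alphaK_pairs (i : Fin 4) :
    ∑ p : K, alphaK i p * (pairs p : ℂ) = 120 * ((![0, 10, 10, 6] i : ℤ) : ℂ) := by
  rw [sum_K _ (fun _ => 0) (fun k => 2 * val i k * ((![30, 0, 6, 10, 10] k : ℕ) : ℂ))
    (fun a => by simp [alphaK_one_left]) fun a => by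
      rw [alphaK_z_left]
      by_cases h : ty a = 1
      · rw [h]; fin_cases i <;> simp [val]
      · rw [pairs_eq a h]]
  fin_cases i <;> simp [val] <;> ring

end CfsgLib.JankoOrder
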